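import Mathlib
import Cfsg.Agent.Lib.Helper35.JR.Defs

/-!
# Project JR (S3206), package [EL] (helper77)

From a normal subgroup `N` with `NLoc N` and `C_E(N) = 1` (Sylow 2-subgroups of `E` abelian)
to `ELoc E`.
-/

set_option autoImplicit false

namespace Cfsg.Agent.Lib.Helper77.JR

open Cfsg.Agent.Lib.Helper35.JR
open scoped Pointwise

universe u

/-- Every Sylow 2-subgroup `T` of `E` contains a Sylow 2-subgroup of the normal subgroup `N`. -/
theorem el_exists_sylow_le {E : Type u} [Group E] [Finite E] (N : Subgroup E) [N.Normal]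
    (T : Sylow 2 E) :
    ∃ V : Sylow 2 ↥N, ∀ v ∈ (V : Subgroup ↥N), (v : E) ∈ (T : Subgroup E) := by
  haveI : Fact (Nat.Prime 2) := ⟨Nat.prime_two⟩
  obtain ⟨P₀⟩ : Nonempty (Sylow 2 ↥N) := inferInstance
  have hP : IsPGroup 2 ↥((P₀ : Subgroup ↥N).map N.subtype) := P₀.isPGroup'.map N.subtype
  obtain ⟨Q, hQ⟩ := hP.exists_le_sylow
  obtain ⟨g, hg⟩ := MulAction.exists_smul_eq E Q T
  refine ⟨(MulAut.conjNormal g : MulAut ↥N) • P₀, ?_⟩
  intro v hv
  rw [Sylow.pointwise_smul_def, Subgroup.mem_smul_pointwise_iff_exists] at hv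
  obtain ⟨p, hp, rfl⟩ := hv
  have h1 : (p : E) ∈ (Q : Subgroup E) := hQ (Subgroup.mem_map_of_mem N.subtype hp)
  have hT : (T : Subgroup E) = MulAut.conj g • (Q : Subgroup E) := by rw [← hg]; rfl
  rw [hT, Subgroup.mem_smul_pointwise_iff_exists]
  refine ⟨(p : E), h1, ?_⟩
  rw [MulAut.smul_def, MulAut.smul_def, MulAut.conj_apply, MulAut.conjNormal_apply]

/-- **[EL]** -/
theorem pkgEL : PkgEL.{u} := by
  intro E _ _ hab N _ hN hC
  haveI : Fact (Nat.Prime 2) := ⟨Nat.prime_two⟩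
  obtain ⟨hsimple, hsq, hsyl, haut⟩ := hN
  haveI := hsimple
  -- every Sylow 2-subgroup of `E` is (the image of) a Sylow 2-subgroup of `N`
  have key : ∀ T : Sylow 2 E, ∃ V : Sylow 2 ↥N,
      (∀ v ∈ (V : Subgroup ↥N), (v : E) ∈ (T : Subgroup E)) ∧
      ∀ x ∈ (T : Subgroup E), ∃ v ∈ (V : Subgroup ↥N), (v : E) = x := by
    intro T
    obtain ⟨V, hV⟩ := el_exists_sylow_le N T
    refine ⟨V, hV, ?_⟩
    intro x hx
    obtain ⟨k, hk⟩ : ∃ k : ℕ, x ^ (2 ^ k) = 1 := by
      obtain ⟨k, hk⟩ := T.isPGroup' ⟨x, hx⟩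
      exact ⟨k, by simpa using congrArg Subtype.val hk⟩
    have hpow : (MulAut.conjNormal x : MulAut ↥N) ^ (2 ^ k) = 1 := by
      rw [← map_pow, hk, map_one]
    obtain ⟨v₀, hv₀, hv₀c⟩ := haut (MulAut.conjNormal x) k hpow V (by
      intro v hv
      apply Subtype.ext
      rw [MulAut.conjNormal_apply]
      have := hab T x hx (v : E) (hV v hv)
      rw [this, mul_inv_cancel_right])
    refine ⟨v₀, hv₀, ?_⟩
    have hc : (v₀ : E)⁻¹ * x ∈ Subgroup.centralizer (N : Set E) := by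
      rw [Subgroup.mem_centralizer_iff]
      intro y hy
      have h1 : x * y * x⁻¹ = (v₀ : E) * y * (v₀ : E)⁻¹ := by
        have := congrArg Subtype.val (hv₀c ⟨y, hy⟩)
        rw [MulAut.conjNormal_apply] at this
        exact this
      have h2 : x * y = (v₀ : E) * y * (v₀ : E)⁻¹ * x := by rw [← h1]; group
      calc y * ((v₀ : E)⁻¹ * x) = (v₀ : E)⁻¹ * ((v₀ : E) * y * (v₀ : E)⁻¹ * x) := by group
        _ = (v₀ : E)⁻¹ * (x * y) := by rw [← h2]
        _ = (v₀ : E)⁻¹ * x * y := by group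
    rw [hC, Subgroup.mem_bot] at hc
    exact inv_mul_eq_one.mp hc
  have hNT : ∀ T : Sylow 2 E, (T : Subgroup E) ≤ N := by
    intro T x hx
    obtain ⟨V, -, hV2⟩ := key T
    obtain ⟨v, -, rfl⟩ := hV2 x hx
    exact v.2
  -- order 4, exponent 2
  have hcard : ∀ T : Sylow 2 E,
      Nat.card ↥(T : Subgroup E) = 4 ∧ ∀ x ∈ (T : Subgroup E), x ^ 2 = 1 := by
    intro T
    obtain ⟨V, hV1, hV2⟩ := key T
    have hTV : (T : Subgroup E) = (V : Subgroup ↥N).map N.subtype := by
      ext x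
      constructor
      · intro hx
        obtain ⟨v, hv, rfl⟩ := hV2 x hx
        exact Subgroup.mem_map_of_mem N.subtype hv
      · intro hx
        obtain ⟨v, hv, rfl⟩ := Subgroup.mem_map.mp hx
        exact hV1 v hv
    constructor
    · rw [hTV, ← (hsyl V).1]
      exact (Nat.card_congr
        ((V : Subgroup ↥N).equivMapOfInjective N.subtype N.subtype_injective).toEquiv).symm
    · intro x hx
      obtain ⟨v, hv, rfl⟩ := hV2 x hx
      have := congrArg Subtype.val ((hsyl V).2 v hv)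
      exact this
  -- generation by squares
  have hNsq : N ≤ Subgroup.closure {y : E | ∃ x : E, x ^ 2 = y} := by
    intro n hn
    have h1 : (⟨n, hn⟩ : ↥N) ∈ Subgroup.closure {y : ↥N | ∃ x : ↥N, x ^ 2 = y} := by
      rw [hsq]; trivial
    have h2 : (Subgroup.closure {y : ↥N | ∃ x : ↥N, x ^ 2 = y}).map N.subtype ≤
        Subgroup.closure {y : E | ∃ x : E, x ^ 2 = y} := by
      rw [MonoidHom.map_closure]
      apply Subgroup.closure_mono
      rintro _ ⟨y, ⟨x, rfl⟩, rfl⟩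
      exact ⟨(x : E), rfl⟩
    exact h2 (Subgroup.mem_map_of_mem N.subtype h1)
  have hodd : Odd N.index := by
    obtain ⟨T⟩ : Nonempty (Sylow 2 E) := inferInstance
    have h1 : ¬ 2 ∣ (T : Subgroup E).index := T.not_dvd_index
    have h2 : N.index ∣ (T : Subgroup E).index := Subgroup.index_dvd_of_le (hNT T)
    rw [← Nat.not_even_iff_odd, even_iff_two_dvd]
    exact fun h => h1 (h.trans h2)
  have hsqE : Subgroup.closure {y : E | ∃ x : E, x ^ 2 = y} = ⊤ := by
    rw [eq_top_iff]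
    intro e _
    obtain ⟨j, hj⟩ := hodd
    have h1 : e ^ N.index ∈ N := Subgroup.pow_index_mem N e
    have h2 : e = (e ^ (j + 1)) ^ 2 * (e ^ N.index)⁻¹ := by
      rw [hj, eq_mul_inv_iff_mul_eq, ← pow_mul, ← pow_succ']
      congr 1
      ring
    rw [h2]
    exact Subgroup.mul_mem _ (Subgroup.subset_closure ⟨e ^ (j + 1), rfl⟩)
      (Subgroup.inv_mem _ (hNsq h1))
  -- automorphisms
  have hautE : ∀ (β : E ≃* E) (k : ℕ), β ^ (2 ^ k) = 1 → ∀ T : Sylow 2 E,
      (∀ x ∈ (T : Subgroup E), β x = x) →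
      ∃ v ∈ (T : Subgroup E), ∀ x : E, β x = v * x * v⁻¹ := by
    intro β k hβ T hfix
    obtain ⟨V, hV1, hV2⟩ := key T
    obtain ⟨t₀, ht₀, ht₀1⟩ : ∃ t₀ ∈ (T : Subgroup E), t₀ ≠ 1 := by
      by_contra hcon
      push Not at hcon
      have hbot : (T : Subgroup E) = ⊥ := by
        rw [eq_bot_iff]
        intro x hx
        exact Subgroup.mem_bot.mpr (hcon x hx)
      have h4 := (hcard T).1
      rw [hbot, Subgroup.card_bot] at h4
      omega
    have hpres : ∀ γ : E ≃* E, (∀ x ∈ (T : Subgroup E), γ x = x) → ∀ n ∈ N, γ.symm n ∈ N := by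
      intro γ hγ
      haveI hN' : (N.map γ.toMonoidHom).Normal :=
        Subgroup.Normal.map inferInstance _ γ.surjective
      have hnorm : ((N ⊓ N.map γ.toMonoidHom).subgroupOf N).Normal := inferInstance
      rcases hnorm.eq_bot_or_eq_top with h | h
      · exfalso
        have ht₀N : t₀ ∈ N := hNT T ht₀
        have hmem : (⟨t₀, ht₀N⟩ : ↥N) ∈ (N ⊓ N.map γ.toMonoidHom).subgroupOf N := by
          rw [Subgroup.mem_subgroupOf, Subgroup.mem_inf]
          exact ⟨ht₀N, Subgroup.mem_map.mpr ⟨t₀, ht₀N, hγ t₀ ht₀⟩⟩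
        rw [h, Subgroup.mem_bot] at hmem
        exact ht₀1 (congrArg Subtype.val hmem)
      · intro n hn
        have hmem : (⟨n, hn⟩ : ↥N) ∈ (N ⊓ N.map γ.toMonoidHom).subgroupOf N := by
          rw [h]; trivial
        rw [Subgroup.mem_subgroupOf, Subgroup.mem_inf] at hmem
        obtain ⟨n', hn', hn'eq⟩ := Subgroup.mem_map.mp hmem.2
        have h5 : γ.symm n = n' := by
          rw [MulEquiv.symm_apply_eq]
          exact hn'eq.symm
        rw [h5]
        exact hn'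
    have hβN : ∀ n ∈ N, β n ∈ N := by
      intro n hn
      have := hpres β.symm (by
        intro x hx
        rw [MulEquiv.symm_apply_eq]
        exact (hfix x hx).symm) n hn
      simpa using this
    have hβN' : ∀ n ∈ N, β.symm n ∈ N := hpres β hfix
    let βN : ↥N ≃* ↥N :=
      { toFun := fun n => ⟨β n, hβN n n.2⟩
        invFun := fun n => ⟨β.symm n, hβN' n n.2⟩
        left_inv := fun n => Subtype.ext (β.symm_apply_apply n)
        right_inv := fun n => Subtype.ext (β.apply_symm_apply n)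
        map_mul' := fun a b => Subtype.ext (map_mul β (a : E) (b : E)) }
    have hβNpow : ∀ (j : ℕ) (n : ↥N), (((βN ^ j) n : ↥N) : E) = (β ^ j) (n : E) := by
      intro j
      induction j with
      | zero => intro n; simp
      | succ j ih =>
        intro n
        rw [pow_succ, pow_succ, MulAut.mul_apply, MulAut.mul_apply, ih]
        rfl
    have hβN1 : βN ^ (2 ^ k) = 1 := by
      apply MulEquiv.ext
      intro n
      apply Subtype.ext
      rw [hβNpow, hβ]
      rfl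
    obtain ⟨v₀, hv₀, hv₀c⟩ := haut βN k hβN1 V (by
      intro v hv
      apply Subtype.ext
      exact hfix (v : E) (hV1 v hv))
    refine ⟨(v₀ : E), hV1 v₀ hv₀, ?_⟩
    have hN_eq : ∀ y ∈ N, β y = (v₀ : E) * y * (v₀ : E)⁻¹ := by
      intro y hy
      have := congrArg Subtype.val (hv₀c ⟨y, hy⟩)
      exact this
    intro e
    have hc : e⁻¹ * (v₀ : E)⁻¹ * β e * (v₀ : E) ∈ Subgroup.centralizer (N : Set E) := by
      rw [Subgroup.mem_centralizer_iff]
      intro y hy
      have h1 : e * y * e⁻¹ ∈ N := ‹N.Normal›.conj_mem y hy e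
      have h2 := hN_eq (e * y * e⁻¹) h1
      rw [map_mul, map_mul, map_inv, hN_eq y hy] at h2
      have h3 : β e * (v₀ : E) * y =
          (v₀ : E) * (e * y * e⁻¹) * (v₀ : E)⁻¹ * (β e * (v₀ : E)) := by
        rw [← h2]; group
      calc y * (e⁻¹ * (v₀ : E)⁻¹ * β e * (v₀ : E))
          = e⁻¹ * (v₀ : E)⁻¹ * ((v₀ : E) * (e * y * e⁻¹) * (v₀ : E)⁻¹ * (β e * (v₀ : E))) := by
            group
        _ = e⁻¹ * (v₀ : E)⁻¹ * (β e * (v₀ : E) * y) := by rw [← h3]
        _ = e⁻¹ * (v₀ : E)⁻¹ * β e * (v₀ : E) * y := by group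
    rw [hC, Subgroup.mem_bot] at hc
    calc β e = (v₀ : E) * e * (e⁻¹ * (v₀ : E)⁻¹ * β e * (v₀ : E)) * (v₀ : E)⁻¹ := by group
      _ = (v₀ : E) * e * (v₀ : E)⁻¹ := by rw [hc, mul_one]
  exact ⟨hsqE, hcard, hautE⟩

end Cfsg.Agent.Lib.Helper77.JR
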